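import Cfsg.Agent.J4A.Nab
import Cfsg.Agent.J4A.PG
import Cfsg.Agent.J4B.Main

set_option autoImplicit false
open Subgroup
open scoped Pointwise symmDiff

namespace Cfsg.Agent.J4A
open H11

variable {G : Type*} [Group G] [Finite G] {z t x y s f : G} {E : Subgroup G}

local notation "𝐂[" a "]" => centralizer ({a} : Set G)
local notation "𝐍[" A "]" => normalizer ((A : Subgroup G) : Set G)

theorem inv_of_not_cent {u n : G} {p : ℕ} (hp : p.Prime) (hu : orderOf u = p)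
    (hn : n ∈ 𝐍[zpowers u]) (n2 : n * n = 1) (h : n ∉ 𝐂[u]) : n * u * n⁻¹ = u⁻¹ := by
  have h1 := conj_mem_of_mem_normalizer hn (mem_zpowers u)
  by_contra h2
  have h3 := zp_eq hp (card_zp.trans hu) (mul_mem (mem_zpowers u) h1)
    fun e => h2 (eq_inv_of_mul_eq_one_right e)
  have h4 : n ∈ 𝐂[u * (n * u * n⁻¹)] := mc_of_conj (by
    obtain ⟨k, hk⟩ := h1
    simp only at hk
    calc n * (u * (n * u * n⁻¹)) * n⁻¹ = (n * u * n⁻¹) * ((n * n) * u * (n * n)⁻¹) := by group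
      _ = _ := by rw [n2, ← hk]; group)
  rw [← cent_zp, h3, cent_zp] at h4
  exact h h4

namespace J4I
variable (h : J4I z t x y s f E)
include h

theorem not_yt {v : G} (hv : v ∈ OU y) (hY : v ∉ zpowers y) : ¬ YT y v := fun ⟨g, hg⟩ => by
  have h1 : g * v * g⁻¹ ∈ zpowers y := by rw [← hg, cj_zpowers]; exact mem_zpowers _
  have h2 : g * v * g⁻¹ ≠ 1 := fun e => hY (by rw [conj_eq_one_iff.1 e]; exact one_mem _)
  exact h.not_conj hv hY ((h.conj_Y h1 h2).trans (isConj_iff.2 ⟨g, rfl⟩).symm)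

theorem cv_O {v a : G} (hv : v ∈ OU y) (hY : v ∉ zpowers y) (ha : a ∈ 𝐂[v])
    (ho : orderOf a = 11) : a ∈ OU y := by
  have o := h.ord11 hv (by rintro rfl; exact hY (one_mem _))
  obtain ⟨D, h1, h2, h3, h4⟩ := h.other11 o (h.not_yt hv hY)
  have h5 : 𝐂[v] ⊓ OU y ≤ D := fun u hu =>
    odd_mem h3 h4 hu.1 (h.odd_O.of_dvd_nat (ord_dvd hu.2))
  obtain ⟨k, hk, e⟩ := (Nat.dvd_prime_pow (by norm_num)).1 h2
  have h6 := (h.cN hv hY).2.1
  by_cases c : k = 3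
  · subst c
    obtain ⟨g, -, hg⟩ := (h.O_syl.of_card_ge (IsPGroup.of_card e) le_top
      (by rw [e, h.cardO]; norm_num)).exists_cj_eq h.O_syl
    have h7 : g * v * g⁻¹ ∈ OU y := by
      rw [← hg, mem_cj]; simpa [mul_assoc] using h5 ⟨mc.2 rfl, hv⟩
    have h8 := (h.mem_Z (v := ⟨_, h7⟩)).1 (mem_center_iff.2 fun u => Subtype.ext (mc.1 (by
      rw [← cj_cent1]; exact cj_mono g h1 (hg.ge u.2))))
    exact (h.not_yt hv hY ⟨g, by
      rw [cj_zpowers, zp_eq (by norm_num) h.cardY h8 (ne1 ((ord_conj _ _).trans o))]⟩).elim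
  · have h7 : 𝐂[v] ⊓ OU y = D := eq_of_le_card h5 (by
      rw [e, h6]; exact Nat.pow_le_pow_right (n := 11) (by norm_num) (by omega : k ≤ 2))
    exact (h7.ge (odd_mem h3 h4 ha (by rw [ho]; decide))).2

theorem nv_Y {v : G} (hv : v ∈ OU y) (hY : v ∉ zpowers y) : 𝐍[zpowers v] ≤ 𝐍[zpowers y] :=
  fun g hg => mem_norm_zp (by_contra fun c => h.not_conj (h.cv_O hv hY
    (conj_mem_of_mem_normalizer (cent_normal v hg) (mc' (OU_le hv))) ((ord_conj _ _).trans h.y11)) c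
      (isConj_iff.2 ⟨g, rfl⟩))

theorem comm_ws {v w r : G} (hv : v ∈ OU y) (hY : v ∉ zpowers y) (w2 : w * w = 1)
    (hw : w * v * w⁻¹ = v⁻¹) (wy : w ∈ 𝐂[y]) (r2 : r * r = 1) (hr : r ∈ 𝐂[v]) : r * w = w * r := by
  have o := h.ord11 hv (by rintro rfl; exact hY (one_mem _))
  have wn : w ∈ 𝐍[zpowers v] := mem_norm_zp (hw ▸ inv_mem (mem_zpowers v))
  have rn := h.nv_Y hv hY (cent_le_norm hr)
  obtain ⟨c1, c2, -⟩ := h.cN hv hY
  have h1 : w * r * w⁻¹ * r⁻¹ ∈ 𝐂[v] ⊓ OU y := c1.le ⟨⟨(𝐂[v]).mul_mem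
    (conj_mem_of_mem_normalizer (cent_normal v wn) hr) (inv_mem hr), OU_norm (mul_mem (mul_mem
      (mul_mem (cent_le_norm wy) rn) (inv_mem (cent_le_norm wy))) (inv_mem rn))⟩,
    mc.2 (comm_cent (cent_le_norm wy) rn)⟩
  have vn : zpowers v ≤ 𝐍[zpowers y] := zpowers_le.2 (cent_le_norm (OU_le hv))
  have h2 : zpowers y ⊔ zpowers v = 𝐂[v] ⊓ OU y := by
    refine eq_of_le_card (sup_le (zpowers_le.2 ⟨mc' (OU_le hv), h.y_O⟩)
      (zpowers_le.2 ⟨mc.2 rfl, hv⟩)) ?_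
    rw [H1.card_sup_of_disjoint vn, c2, h.cardY, card_zp, o]
    exact eq_bot_iff.2 fun a ha => by_contra fun c =>
      hY (zpowers_le.2 ha.1 ((zp_eq (by norm_num) (card_zp.trans o) ha.2 c).ge (mem_zpowers v)))
  obtain ⟨b, hb, a, ha, e⟩ := (H1.mem_sup_of_le_normalizer_left vn).1 (h2.ge h1)
  have ew : w⁻¹ = w := inv_eq_of_mul_eq_one_right w2
  have er : r⁻¹ = r := inv_eq_of_mul_eq_one_right r2
  have h3 : w * (b * a) * w⁻¹ = (b * a)⁻¹ := by
    rw [e]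
    calc w * (w * r * w⁻¹ * r⁻¹) * w⁻¹ = (w * w) * r * w⁻¹ * r⁻¹ * w⁻¹ := by group
      _ = _ := by rw [w2]; nth_rewrite 1 [ew]; group
  have h4 : r * (b * a) * r⁻¹ = (b * a)⁻¹ := by
    rw [e]
    calc r * (w * r * w⁻¹ * r⁻¹) * r⁻¹ = r * w * r * w⁻¹ * (r * r)⁻¹ := by group
      _ = _ := by rw [r2]; nth_rewrite 2 [← er]; group
  have h5 : w * a * w⁻¹ = a⁻¹ := by
    obtain ⟨k, rfl⟩ := ha
    rw [← conj_zpow, hw, inv_zpow]
  have h6 : b = 1 := by
    refine h.odd_eq (h.Y_le hb) (mul_right_cancel (b := a⁻¹ * b⁻¹) ?_)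
    have h7 := h.Y_cent hb (OU_le (zpowers_le.2 hv (inv_mem ha)))
    calc b * b * (a⁻¹ * b⁻¹) = b * (b * a⁻¹) * b⁻¹ := by group
      _ = b * (a⁻¹ * b) * b⁻¹ := by rw [h7]
      _ = b * a⁻¹ := by group
      _ = (w * b * w⁻¹) * (w * a * w⁻¹) := by rw [h5, h.Y_cent hb wy, mul_inv_cancel_right]
      _ = w * (b * a) * w⁻¹ := by group
      _ = _ := by rw [h3]; group
  subst h6
  have h7 : r * a * r⁻¹ = a := conj_of_mc (by
    obtain ⟨k, rfl⟩ := ha
    exact mc' (zpow_mem (mc' hr) k))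
  rw [one_mul] at e h4
  rw [h.odd_eq (zpowers_le.2 hv ha) (by nth_rewrite 1 [h7.symm.trans h4]; simp)] at e
  rw [eq_comm, mul_inv_eq_one, mul_inv_eq_iff_eq_mul] at e
  exact e.symm

theorem twist0 {v c w r : G} (hv : v ∈ OU y) (hY : v ∉ zpowers y) (c2 : orderOf c = 2)
    (hc : c ∈ 𝐂[v]) (w2 : w * w = 1) (cw2 : c * w * (c * w) = 1) (hw : w * v * w⁻¹ = v⁻¹)
    (r2 : r * r = 1) (hr : r ∈ 𝐂[v]) : r * w = w * r ∨ r * (c * w) = c * w * r := by
  by_cases wy : w ∈ 𝐂[y]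
  · exact Or.inl (h.comm_ws hv hY w2 hw wy r2 hr)
  have h1 := inv_of_not_cent (by norm_num) h.y11
    (h.nv_Y hv hY (mem_norm_zp (hw ▸ inv_mem (mem_zpowers v)))) w2 wy
  have h2 := inv_of_not_cent (by norm_num) h.y11 (h.nv_Y hv hY (cent_le_norm hc)) (sq1 c2)
    fun e => hY (h.cent_y (Or.inl c2) e ▸ (⟨hv, mc' hc⟩ : v ∈ OU y ⊓ 𝐂[c]))
  refine Or.inr (h.comm_ws hv hY cw2 ?_ (mc_of_conj ?_) r2 hr)
  · calc c * w * v * (c * w)⁻¹ = c * (w * v * w⁻¹) * c⁻¹ := by group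
      _ = (c * v * c⁻¹)⁻¹ := by rw [hw]; group
      _ = _ := by rw [conj_of_mc hc]
  · calc c * w * y * (c * w)⁻¹ = c * (w * y * w⁻¹) * c⁻¹ := by group
      _ = (c * y * c⁻¹)⁻¹ := by rw [h1]; group
      _ = _ := by rw [h2, inv_inv]

theorem twist {v c w r : G} (hv : orderOf v = 11) (c2 : orderOf c = 2) (hz : ¬ IsConj z c)
    (hc : c ∈ 𝐂[v]) (w2 : w * w = 1) (cw2 : c * w * (c * w) = 1) (hw : w * v * w⁻¹ = v⁻¹)
    (r2 : r * r = 1) (hr : r ∈ 𝐂[v]) : r * w = w * r ∨ r * (c * w) = c * w * r := by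
  obtain ⟨g, -, hg⟩ := h.O_syl.exists_conj_mem (k := 1) (by simpa using hv) (mem_top v)
  have k : ∀ a ∈ 𝐂[v], g * a * g⁻¹ ∈ 𝐂[g * v * g⁻¹] := fun a ha => by
    rw [← cj_cent1, mem_cj]; simpa [mul_assoc] using ha
  have hY : g * v * g⁻¹ ∉ zpowers y := fun e => by
    have h1 := k c hc
    rw [← cent_zp, zp_eq (by norm_num) h.cardY e (ne1 ((ord_conj _ _).trans hv)), cent_zp] at h1
    obtain ⟨a, -, ha⟩ := h.inv_C h1 ((ord_conj _ _).trans c2)
    exact hz (isConj_iff.2 ⟨a * g, by rw [← ha]; group⟩).symm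
  have := h.twist0 (w := g * w * g⁻¹) (r := g * r * g⁻¹) hg hY ((ord_conj _ _).trans c2) (k c hc)
    (by rw [conj_mul, w2]; simp) (by rw [conj_mul, conj_mul, cw2]; simp)
    (by rw [conj_inv, conj_mul, conj_mul, hw, conj_inv]) (by rw [conj_mul, r2]; simp) (k r hr)
  simpa only [conj_mul, mul_left_inj, mul_right_inj] using this

theorem exists_s {u v : G} (hu : orderOf u = 23) (hv : orderOf v = 11) (hn : v ∈ 𝐍[zpowers u]) :
    ∃ r, r * r = 1 ∧ r ∈ 𝐂[v] ∧ r * u * r⁻¹ = u⁻¹ := by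
  obtain ⟨h1, h2⟩ := h.bigP 23 22 (by simp) u hu
  have hd : zpowers u ⊓ zpowers v = ⊥ := by
    refine disjoint_iff.1 (disjoint_of_coprime_natCard ?_)
    rw [card_zp, card_zp, hu, hv]; norm_num
  have cm : ∀ g ∈ 𝐍[zpowers u], g * v * g⁻¹ * v⁻¹ ∈ zpowers u := fun g hg =>
    h1 ▸ mc.2 (comm_cent hg hn)
  set B := zpowers u ⊔ zpowers v with hB
  have cB : Nat.card B = 253 := by
    rw [H1.card_sup_of_disjoint (zpowers_le.2 hn) hd, card_zp, card_zp, hu, hv]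
  have lB : B ≤ 𝐍[zpowers u] := sup_le le_normalizer (zpowers_le.2 hn)
  have nB : 𝐍[zpowers u] ≤ 𝐍[B] := fun g hg => mem_normalizer_of_cj_le (by
    rw [hB, cj_sup, cj_eq_iff.2 hg, cj_zpowers]
    refine sup_le le_sup_left (zpowers_le.2 ?_)
    simpa using mul_mem (mem_sup_left (cm g hg)) (mem_sup_right (S := zpowers u) (mem_zpowers v)))
  have iB : B.relIndex 𝐍[zpowers u] ∣ 2 := by
    have := card_mul_relIndex lB
    rw [cB, h2] at this
    exact (by omega : _ = 2).dvd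
  obtain ⟨a, ha, ao⟩ := exists_ord (H := 𝐍[zpowers u]) Nat.prime_two (by rw [h2]; norm_num)
  obtain ⟨n, hnB, hna⟩ := (syl_zp hv (mem_sup_right (mem_zpowers v) : v ∈ B)
    (by rw [cB]; norm_num)).frattini (nB ha)
  have h3 : 2 ∣ Nat.card (zpowers (n * a)) := by
    rw [card_zp, ← even_iff_two_dvd, ← Nat.not_odd_iff_even]
    intro c
    have := ord_dvd ((mul_mem_cancel_left hnB).1 (odd_mem nB iB (mul_mem (lB hnB) ha) c))
    rw [ao, cB] at this; norm_num at this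
  obtain ⟨r, hr, ro⟩ := exists_ord Nat.prime_two h3
  have r1 : r ∈ 𝐍[zpowers u] := zpowers_le.2 (mul_mem (lB hnB) ha) hr
  have r2 : r ∈ 𝐍[zpowers v] := zpowers_le.2 hna hr
  refine ⟨r, sq1 ro, mc_of_conj (mul_inv_eq_one.1 (hd.le ⟨cm r r1, (zpowers v).mul_mem
    (conj_mem_of_mem_normalizer r2 (mem_zpowers v)) (inv_mem (mem_zpowers v))⟩)),
    inv_of_not_cent (by norm_num) hu r1 (sq1 ro) fun e => ?_⟩
  have := ord_dvd (h1 ▸ e)
  rw [ro, card_zp, hu] at this; norm_num at this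

end J4I

theorem even_pair (a b : GolayPt) : Even (({a} : Finset GolayPt) ∆ {b}).card := by
  revert a b; decide +kernel

theorem twist_hom {N : Type*} [Group N] {t : Finset GolayPt → N} {Φ : N →* M24} {κ : M24 →* N}
    (h : J4B.SD t Φ κ) (a : GolayPt) : ∃ κ' : M24 →* N, ∀ g, κ' g = t ({a} ∆ {g • a}) * κ g :=
  ⟨MonoidHom.mk' (fun g => t ({a} ∆ {g • a}) * κ g) fun g k => by
    have := h.act (κ g) _ (even_pair a (k • a))
    rw [h.sec, Finset.smul_finset_symmDiff, Finset.smul_finset_singleton,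
      Finset.smul_finset_singleton, ← mul_smul] at this
    rw [← symmDiff_symmDiff_cancel_left {g • a} {(g * k) • a}, ← symmDiff_assoc, h.mul, ← this,
      map_mul]
    group, fun _ => rfl⟩

open LL LL.U6 in
theorem J4I.s5578 {t' x' : G} (h : J4I z t' x' y s f E) {Q : Subgroup G}
    {ρ : centralizer ({z} : Set G) →* Γ} {p : G → V6} {m : FT z Q ρ p} {x : centralizer ({z} : Set G)}
    {b : ℕ → G} {d : ℕ → centralizer ({z} : Set G)} {t : Finset GolayPt → G}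
    {Φ : normalizer (m.AG : Set G) →* M24} (k : JC m x b d t Φ) :
    ∃ K : Subgroup G, Nonempty (↥K ≃* GL (Fin 2) (ZMod 23) ⧸ center (GL (Fin 2) (ZMod 23))) := by
  obtain ⟨κ, hκ⟩ := J4B.exists_sd k
  obtain ⟨κ', hκ'⟩ := twist_hom hκ none
  let ι := (normalizer (m.AG : Set G)).subtype
  have i1 : Function.Injective (ι.comp κ) :=
    (subtype_injective _).comp (Function.LeftInverse.injective hκ.sec)
  have i2 : Function.Injective (ι.comp κ') := (subtype_injective _).comp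
    (Function.LeftInverse.injective (g := Φ) fun g => by
      rw [hκ', map_mul, hκ.phi_t, one_mul, hκ.sec])
  have e0 : ∀ g : M24, g • (none : GolayPt) = none → (ι.comp κ') g = (ι.comp κ) g := fun g hg => by
    simp only [MonoidHom.comp_apply, hκ', hg, symmDiff_self]
    exact congrArg ι ((congrArg (· * κ g) hκ.empty).trans (one_mul _))
  set S : Finset GolayPt := {none} ∆ {some 0} with hS
  have cS : S.card = 2 := by decide +kernel
  have e1 : (ι.comp κ') PG.W0 = t S * (ι.comp κ) PG.W0 := congrArg ι (hκ' PG.W0)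
  have ou : orderOf ((ι.comp κ) PG.U0) = 23 := by
    rw [orderOf_injective _ i1]
    exact orderOf_eq_prime (Subtype.ext (by decide +kernel : PG.TT 1 ^ 23 = 1))
      fun e => (by decide : PG.TT 1 ≠ 1) (congrArg Subtype.val e)
  have ov : orderOf ((ι.comp κ) PG.H0) = 11 := by
    rw [orderOf_injective _ i1]
    exact orderOf_eq_prime (Subtype.ext (by decide +kernel : PG.MM PG.c2 ^ 11 = 1))
      fun e => (by decide : PG.MM PG.c2 ≠ 1) (congrArg Subtype.val e)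
  obtain ⟨r, r2, rv, ru⟩ := h.exists_s ou ov (mem_norm_zp ⟨2, by
    simp only [← map_inv, ← map_mul, ← map_zpow]
    exact congrArg _ (Subtype.ext
      (by decide +kernel : PG.TT 1 ^ (2 : ℤ) = PG.MM PG.c2 * PG.TT 1 * (PG.MM PG.c2)⁻¹))⟩)
  have w2 : ∀ φ : M24 →* G, φ PG.W0 * φ PG.W0 = 1 := fun φ => by
    rw [← map_mul, show PG.W0 * PG.W0 = 1 from
      Subtype.ext (by decide +kernel : projInv * projInv = 1), map_one]
  have hc : t S ∈ 𝐂[(ι.comp κ) PG.H0] := mc' (mc_of_conj (by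
    have := k.act (κ PG.H0) S (by rw [cS]; decide)
    rw [hκ.sec, hS, Finset.smul_finset_symmDiff, Finset.smul_finset_singleton,
      Finset.smul_finset_singleton] at this
    exact this))
  rcases h.twist (w := (ι.comp κ) PG.W0) ov (ord2 (k.h.sq S) (k.h.ne_one cS)) (k.h.not_conj cS) hc
    (w2 _) (e1 ▸ w2 _) (by
      simp only [← map_inv, ← map_mul]
      exact congrArg _ (Subtype.ext
        (by decide +kernel : projInv * PG.MM PG.c2 * projInv⁻¹ = (PG.MM PG.c2)⁻¹))) r2 rv with c | c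
  · exact PG.pgl _ i1 r2 ru (mc.1 rv) c
  · exact PG.pgl _ i2 r2 (by rw [e0 _ rfl]; exact ru) (by rw [e0 _ rfl]; exact mc.1 rv)
      (by rw [e1]; exact c)

end Cfsg.Agent.J4A
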