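import Cfsg.Agent.J4A.Ab3
import Cfsg.Agent.J4A.GLT
import Cfsg.Agent.H26.ES4
import Cfsg.Agent.H1.Frattini
import Cfsg.Agent.S3055

set_option autoImplicit false
open Subgroup

namespace Cfsg.Agent.J4A
open H11 MulAction
open scoped commutatorElement

variable {G : Type*} [Group G] [Finite G] {z t x y s f : G} {E : Subgroup G}

local notation "𝐂[" a "]" => centralizer ({a} : Set G)
local notation "𝐍[" A "]" => normalizer ((A : Subgroup G) : Set G)

instance fact11 : Fact (Nat.Prime 11) := ⟨by norm_num⟩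

namespace J4I
variable (h : J4I z t x y s f E)
include h

theorem xs : IsExtraspecial 11 (OU y) :=
  H26.isExtraspecial_of_card_cube h.cardO fun hc => h.not_ab fun a ha b hb =>
    congrArg Subtype.val (hc.1.1 ⟨a, ha⟩ ⟨b, hb⟩)

theorem mem_Z {v : OU y} : v ∈ center (OU y) ↔ (v : G) ∈ zpowers y := by
  have h1 : y ∈ (center (OU y)).map (OU y).subtype :=
    ⟨⟨y, h.y_O⟩, mem_center_iff.2 fun u => Subtype.ext (mc.1 (OU_le u.2)), rfl⟩
  rw [zp_eq (by norm_num) ((card_map_subtype _).trans h.xs.2) h1 (ne1 h.y11)]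
  exact ⟨fun hv => ⟨v, hv, rfl⟩, fun ⟨w, hw, e⟩ => (Subtype.ext e : w = v) ▸ hw⟩

theorem Y_cent {c u : G} (hc : c ∈ zpowers y) (hu : u ∈ 𝐂[y]) : u * c = c * u := by
  obtain ⟨k, rfl⟩ := hc
  exact (mc.1 (zpow_mem (mc' hu) k)).symm

theorem comm_Y {a b : G} (ha : a ∈ OU y) (hb : b ∈ OU y) : a * b * a⁻¹ * b⁻¹ ∈ zpowers y :=
  (h.mem_Z (v := ⁅(⟨a, ha⟩ : OU y), ⟨b, hb⟩⁆)).1
    (h.xs.1.2.2 ▸ commutator_mem_commutator (mem_top _) (mem_top _))

theorem NU' : 𝐍[OU y] = 𝐍[zpowers y] := by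
  refine le_antisymm (fun n hn => mem_norm_zp ((h.mem_Z
    (v := ⟨_, conj_mem_of_mem_normalizer hn h.y_O⟩)).1 (mem_center_iff.2 fun u => Subtype.ext ?_)))
    OU_norm
  have := mc.1 (OU_le (conj_mem_of_mem_normalizer' hn u.2))
  show u * (n * y * n⁻¹) = n * y * n⁻¹ * u
  calc u * (n * y * n⁻¹) = n * (n⁻¹ * u * n * y) * n⁻¹ := by group
    _ = _ := by rw [this]; group

theorem odd_eq {c : G} (hc : c ∈ OU y) (e : c * c = 1) : c = 1 :=
  eq_one_of_inv (h.odd_O.of_dvd_nat (ord_dvd hc)) (eq_inv_of_mul_eq_one_left e)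

/-- `z` inverts `U/Y` -/
theorem z_inv {u : G} (hu : u ∈ OU y) : u * (z * u * z⁻¹) ∈ zpowers y := by
  have hz := conj_mem_of_mem_normalizer (OU_norm' h.zy) hu
  have e : z⁻¹ = z := inv_eq_of_mul_eq_one_right (sq1 h.z2)
  have zz := sq1 h.z2
  set b := z * u * z⁻¹ with hb
  have hc := h.comm_Y hz hu
  set c := b * u * b⁻¹ * u⁻¹ with hc'
  have h1 : z * (u * b) * z⁻¹ = c * (u * b) := by
    calc z * (u * b) * z⁻¹ = b * ((z * z) * u * (z * z)⁻¹) := by rw [hb]; group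
      _ = _ := by rw [zz, hc']; group
  have h2 : c * c = 1 := by
    have h3 : z * c * z⁻¹ = c := by rw [h.Y_cent hc h.zy, mul_inv_cancel_right]
    apply mul_right_cancel (b := u * b)
    calc c * c * (u * b) = (z * c * z⁻¹) * (z * (u * b) * z⁻¹) := by rw [h3, h1, mul_assoc]
      _ = z * (c * (u * b)) * z⁻¹ := by group
      _ = z * (z * (u * b) * z⁻¹) * z⁻¹ := by rw [h1]
      _ = (z * z) * (u * b) * (z * z)⁻¹ := by group
      _ = _ := by rw [zz]; group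
  rw [h.odd_eq (h.Y_le hc) h2, one_mul] at h1
  exact h.O_cz (mul_mem hu hz) (mc' (mc_of_conj h1))

theorem pow11 {u : G} (hu : u ∈ OU y) : u ^ 11 = 1 := by
  have h1 : u ^ 11 ∈ zpowers y :=
    (h.mem_Z (v := ⟨u, hu⟩ ^ 11)).1 (h.xs.1.2.1 ▸ H1.pow_mem_frattini h.O_pg _)
  have h2 := h.z_inv hu
  have h3 : (u * (z * u * z⁻¹)) ^ 11 = 1 :=
    orderOf_dvd_iff_pow_eq_one.1 (h.cardY ▸ ord_dvd h2)
  have h4 : Commute u (z * u * z⁻¹) := by
    have := h.Y_cent h2 (OU_le hu)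
    rw [mul_assoc u _ u] at this
    exact mul_left_cancel this
  rw [h4.mul_pow, conj_pow, h.Y_cent h1 h.zy, mul_inv_cancel_right] at h3
  exact h.odd_eq (h.Y_le h1) h3

theorem ord11 {u : G} (hu : u ∈ OU y) (h1 : u ≠ 1) : orderOf u = 11 :=
  orderOf_eq_prime (h.pow11 hu) h1

theorem expO : Monoid.exponent (OU y) = 11 := by
  refine Nat.dvd_antisymm (Monoid.exponent_dvd_of_forall_pow_eq_one fun u =>
    Subtype.ext (h.pow11 u.2)) ?_
  have := Monoid.order_dvd_exponent (⟨y, h.y_O⟩ : OU y)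
  rwa [orderOf_mk, h.y11] at this

theorem gl : ∃ K ≤ 𝐍[OU y], Nonempty (K ≃* GL (Fin 2) (ZMod 3)) := by
  haveI : Fact (Nat.Prime 3) := ⟨Nat.prime_three⟩
  have hx : E ⊓ zpowers x = ⊥ := by
    refine disjoint_iff.1 (disjoint_of_coprime_natCard ?_)
    rw [h.cardE, card_zp, h.x3]; norm_num
  have c1 : Nat.card (E ⊔ zpowers x : Subgroup G) = 24 := by
    rw [H1.card_sup_of_disjoint (zpowers_le.2 h.xE) hx, h.cardE, card_zp, h.x3]
  have sX : s ∈ 𝐍[zpowers x] := mem_norm_zp (h.sx ▸ inv_mem (mem_zpowers x))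
  have l1 : E ⊔ zpowers x ≤ 𝐂[y] := sup_le (fun e he => (h.E_le he).2) (zpowers_le.2 h.x_mem.2)
  have hs : ∀ A ≤ 𝐂[y], A ⊓ zpowers s = ⊥ := fun A hA => eq_bot_iff.2 fun a ha =>
    ((mem_zpowers_invol (sq1 h.s2)).1 ha.2).resolve_right fun e => h.s_not (hA (e ▸ ha.1))
  set K := E ⊔ zpowers x ⊔ zpowers s with hK
  have c2 : Nat.card K = 48 := by
    rw [H1.card_sup_of_disjoint (H1.le_normalizer_sup (zpowers_le.2 h.sE) (zpowers_le.2 sX))
      (hs _ l1), c1, card_zp, h.s2]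
  have hE : E ≤ K := le_sup_left.trans le_sup_left
  have hxK : x ∈ K := mem_sup_left (mem_sup_right (mem_zpowers x))
  have hsK : s ∈ K := mem_sup_right (mem_zpowers s)
  have KE : K ≤ 𝐍[E] := sup_le (sup_le le_normalizer (zpowers_le.2 h.xE)) (zpowers_le.2 h.sE)
  set C := K ⊓ centralizer (E : Set G) with hC
  have KC : ∀ k ∈ K, ∀ c ∈ C, k * c * k⁻¹ ∈ C := fun k hk c hc =>
    ⟨K.mul_mem (K.mul_mem hk hc.1) (K.inv_mem hk), fun e he => by
      have := hc.2 _ (conj_mem_of_mem_normalizer' (KE hk) he)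
      calc e * (k * c * k⁻¹) = k * (k⁻¹ * e * k * c) * k⁻¹ := by group
        _ = _ := by rw [this]; group⟩
  have c3 : ¬ 3 ∣ Nat.card C := fun h3 => by
    obtain ⟨a, ha, ho⟩ := exists_ord Nat.prime_three h3
    obtain ⟨k, hk, hka⟩ := (syl_zp h.x3 hxK (by rw [c2]; norm_num)).exists_conj_mem (k := 1)
      (by simpa using ho) ha.1
    have h4 : x ∈ C := by
      have := zp_eq Nat.prime_three (card_zp.trans h.x3) hka (ne1 ((ord_conj _ _).trans ho))
      exact (zpowers_le.2 (KC k hk a ha)) (this ▸ mem_zpowers x)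
    have h5 : E ≤ zpowers z := h.Ex ▸ le_inf le_rfl fun e he => mc.2 (h4.2 e he)
    have := card_dvd_of_le h5
    rw [h.cardE, card_zp, h.z2] at this; norm_num at this
  have pC : IsPGroup 2 C := by
    have h4 : Nat.card C ∣ 2 ^ 4 := Nat.Coprime.dvd_of_dvd_mul_right
      ((Nat.Prime.coprime_iff_not_dvd Nat.prime_three).2 c3).symm ((card_dvd_of_le inf_le_left).trans c2.dvd)
    obtain ⟨k, -, hk⟩ := (Nat.dvd_prime_pow Nat.prime_two).1 h4
    exact IsPGroup.of_card hk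
  have c4 : Nat.card (E ⊔ zpowers s : Subgroup G) = 16 := by
    rw [H1.card_sup_of_disjoint (zpowers_le.2 h.sE) (hs _ (le_sup_left.trans l1)), h.cardE, card_zp,
      h.s2]
  have hT : IsSylIn 2 (E ⊔ zpowers s) K := isSylIn_of_card (sup_le hE (zpowers_le.2 hsK))
    (IsPGroup.of_card (n := 4) c4) (m := 3) (by rw [c2, c4]) (by norm_num)
  have CT : C ≤ E ⊔ zpowers s := hT.le_of_normalized pC inf_le_left fun k hk =>
    mem_normalizer_of_forall (KC k (hT.le hk))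
  have CE : C ≤ E := fun g hg => by
    obtain ⟨e, he, a, ha, rfl⟩ := (H1.mem_sup_of_le_normalizer_left (zpowers_le.2 h.sE)).1 (CT hg)
    rcases (mem_zpowers_invol (sq1 h.s2)).1 ha with rfl | rfl
    · simpa using he
    exfalso
    have h4 := CT (mul_mem (KC x hxK _ hg) (inv_mem hg))
    have h5 : x * (e * a) * x⁻¹ * (e * a)⁻¹ = (x * e * x⁻¹) * (x * x) * e⁻¹ := by
      calc x * (e * a) * x⁻¹ * (e * a)⁻¹ = x * e * (a * x * a⁻¹)⁻¹ * e⁻¹ := by group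
        _ = _ := by rw [h.sx]; group
    rw [h5, mul_mem_cancel_right (mem_sup_left (inv_mem he)),
      mul_mem_cancel_left (mem_sup_left (conj_mem_of_mem_normalizer h.xE he))] at h4
    have h6 := ord_dvd h4
    rw [c4, ← sq, Nat.Coprime.orderOf_pow (by rw [h.x3]; norm_num), h.x3] at h6
    norm_num at h6
  obtain ⟨e⟩ := h.q8
  let ι : QuaternionGroup 2 →* K := (inclusion hE).comp e.symm.toMonoidHom
  have hι : ι.range = E.subgroupOf K := by
    rw [MonoidHom.range_comp, MonoidHom.range_eq_top.2 e.symm.surjective, ← MonoidHom.range_eq_map,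
      inclusion_range]
  haveI : ι.range.Normal := hι ▸ (normal_subgroupOf_iff_le_normalizer hE).2 KE
  obtain ⟨ρ, hρ⟩ := GLT.exists_fr (ι := ι) ((inclusion_injective hE).comp e.symm.injective)
    fun k hk => by
      rw [hι] at hk ⊢
      exact CE ⟨k.2, fun a ha => congrArg Subtype.val (hk ⟨a, hE ha⟩ ha)⟩
  refine ⟨K, sup_le (l1.trans OU_norm') (zpowers_le.2 (OU_norm h.s_norm)),
    hρ.gl c2 (w := ⟨s, hsK⟩) (Subtype.ext (sq1 h.s2)) fun hw => ?_⟩
  rw [hι] at hw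
  exact h.s_not (h.E_le hw).2

theorem syl_eq (U : Sylow 11 G) : ∃ g, cj g (OU y) = U := by
  obtain ⟨g, -, hg⟩ := h.O_syl.exists_cj_eq (isSylIn_top U)
  exact ⟨g, hg⟩

theorem s5575 (U : Sylow 11 G) :
    Cfsg.IsExtraspecial 11 ↥(U : Subgroup G) ∧ Nat.card ↥(U : Subgroup G) = 11 ^ 3 ∧
    Monoid.exponent ↥(U : Subgroup G) = 11 ∧
    Nat.card ↥(Subgroup.normalizer ((U : Subgroup G) : Set G)) = 2 ^ 4 * 3 * 5 * 11 ^ 3 ∧
    ∃ K : Subgroup G, K ≤ Subgroup.normalizer ((U : Subgroup G) : Set G) ∧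
      Nonempty (↥K ≃* GL (Fin 2) (ZMod 3)) := by
  obtain ⟨g, hg⟩ := h.syl_eq U
  obtain ⟨K, hK, ⟨e⟩⟩ := h.gl
  rw [← hg, ← cj_normalizer, card_cj, card_cj, h.cardO, h.NU', h.cardN]
  exact ⟨H26.isExtraspecial_congr h.xs (cjEquiv g _),
    by norm_num, (Monoid.exponent_eq_of_mulEquiv (cjEquiv g _)).symm.trans h.expO, by norm_num,
    cj g K, cj_mono g (h.NU' ▸ hK), ⟨(cjEquiv g K).symm.trans e⟩⟩

/-- the centraliser in `N(U)` of a non-central element of `U` -/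
theorem cN {v : G} (hv : v ∈ OU y) (hY : v ∉ zpowers y) :
    𝐂[v] ⊓ 𝐍[OU y] ⊓ 𝐂[y] = 𝐂[v] ⊓ OU y ∧ Nat.card (𝐂[v] ⊓ OU y : Subgroup G) = 121 ∧
      (𝐂[y]).relIndex (𝐂[v] ⊓ 𝐍[OU y]) ∣ 2 := by
  have ho := h.ord11 hv (by rintro rfl; exact hY (one_mem _))
  refine ⟨le_antisymm (le_inf (inf_le_left.trans inf_le_left) (h.in_O ?_
    (inf_le_left.trans inf_le_right))) (le_inf (inf_le_inf_left _ le_normalizer)
      (inf_le_right.trans OU_le)), ?_, ?_⟩
  · have h1 := card_dvd_of_le (inf_le_right : 𝐂[v] ⊓ 𝐍[OU y] ⊓ 𝐂[y] ≤ _)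
    rw [h.cardC'] at h1
    suffices h5 : Nat.card (𝐂[v] ⊓ 𝐍[OU y] ⊓ 𝐂[y] : Subgroup G) ∣ 11 ^ 3 by
      obtain ⟨k, -, hk⟩ := (Nat.dvd_prime_pow (by norm_num)).1 h5
      exact IsPGroup.of_card hk
    refine dvd_pow_of_prime (by norm_num) Nat.card_pos.ne' h1 (by norm_num) fun p hp hd => ?_
    obtain ⟨a, ha, hao⟩ := exists_ord hp hd
    have h2 : p ∣ 2 ^ 3 * 3 * 11 ^ 3 := hd.trans h1
    rcases (Nat.Prime.dvd_mul hp).1 h2 with h3 | h3
    · refine (hY (h.cent_y ?_ ha.2 ▸ (⟨hv, mc' ha.1.1⟩ : v ∈ OU y ⊓ 𝐂[a]))).elim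
      rcases (Nat.Prime.dvd_mul hp).1 h3 with h4 | h4
      · exact Or.inl (hao.trans
          ((Nat.prime_dvd_prime_iff_eq hp Nat.prime_two).1 (hp.dvd_of_dvd_pow h4)))
      · exact Or.inr (hao.trans ((Nat.prime_dvd_prime_iff_eq hp Nat.prime_three).1 h4))
    · exact (Nat.prime_dvd_prime_iff_eq hp (by norm_num)).1 (hp.dvd_of_dvd_pow h3)
  · have h1 : 𝐂[v] ⊓ OU y < OU y := lt_of_le_of_ne inf_le_right fun e => hY
      ((h.mem_Z (v := ⟨v, hv⟩)).1 (mem_center_iff.2 fun u => Subtype.ext (mc.1 (e.ge u.2).1)))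
    have h2 : zpowers y < 𝐂[v] ⊓ OU y := lt_of_le_of_ne (zpowers_le.2 ⟨mc' (OU_le hv), h.y_O⟩)
      fun e => hY (e.ge ⟨mc.2 rfl, hv⟩)
    have h3 := card_lt_of_lt h1
    have h4 := card_lt_of_lt h2
    have h5 := card_dvd_of_le h1.le
    rw [h.cardO] at h3 h5
    rw [h.cardY] at h4
    obtain ⟨k, hk, e⟩ := (Nat.dvd_prime_pow (p := 11) (m := 3) (by norm_num)).1 h5
    interval_cases k <;> omega
  · have h3 : (𝐂[y]).relIndex (𝐂[v] ⊓ 𝐍[OU y]) ∣ 2 * 5 := by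
      rw [show 2 * 5 = 10 from rfl, ← h.idx10, ← h.NU', ← relIndex_subgroupOf inf_le_right]
      haveI : ((𝐂[y]).subgroupOf 𝐍[OU y]).Normal :=
        (normal_subgroupOf_iff_le_normalizer OU_norm').2 (h.NU' ▸ cent_normal y)
      exact relIndex_dvd_index_of_normal _ _
    refine Nat.Coprime.dvd_of_dvd_mul_right
      ((Nat.Prime.coprime_iff_not_dvd Nat.prime_five).2 fun h5 => ?_).symm h3
    obtain ⟨a, ha, hao⟩ := exists_ord (H := 𝐂[v] ⊓ 𝐍[OU y]) Nat.prime_five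
      (h5.trans (relIndex_dvd_card _ _))
    exact h.not57 (Or.inl hao) ho (mc' ha.1)

/-- `N(U)` is transitive on `U - Y` -/
theorem trans {v w : G} (hv : v ∈ OU y) (hY : v ∉ zpowers y) (hw : w ∈ OU y)
    (hwY : w ∉ zpowers y) :
    Nat.card (𝐂[v] ⊓ 𝐍[OU y] : Subgroup G) = 242 ∧ ∃ n ∈ 𝐍[OU y], n * v * n⁻¹ = w := by
  obtain ⟨h1, h2, h3⟩ := h.cN hv hY
  have h4 := card_mul_relIndex (inf_le_left : 𝐂[v] ⊓ 𝐍[OU y] ⊓ 𝐂[y] ≤ _)
  rw [inf_relIndex_left, h1, h2] at h4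
  have h5 := Nat.le_of_dvd (by norm_num) h3
  let F : 𝐍[OU y] → G := fun n => n * v * (n : G)⁻¹
  have h6 : Set.range F ⊆ (OU y : Set G) \ zpowers y := by
    rintro _ ⟨n, rfl⟩
    exact ⟨conj_mem_of_mem_normalizer n.2 hv, fun e => hY (by
      simpa [F, mul_assoc] using conj_mem_of_mem_normalizer' (h.NU'.le n.2) e)⟩
  have h7 : ((OU y : Set G) \ zpowers y).ncard = 1320 := by
    rw [Set.ncard_sdiff h.Y_le, ← Nat.card_coe_set_eq, ← Nat.card_coe_set_eq]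
    change Nat.card (OU y) - Nat.card (zpowers y) = _
    rw [h.cardO, h.cardY]
  have h8 : (Set.range F).ncard = (𝐂[v]).relIndex 𝐍[OU y] := by
    rw [← Nat.card_coe_set_eq, relIndex, index]
    refine Nat.card_congr ((Setoid.quotientKerEquivRange F).symm.trans
      (Quotient.congrRight fun a b => ?_))
    rw [QuotientGroup.leftRel_apply, mem_subgroupOf, mc, Setoid.ker_def]
    simp only [F, coe_mul, coe_inv]
    constructor
    · intro e
      calc (a : G)⁻¹ * b * v = (a : G)⁻¹ * (b * v * (b : G)⁻¹) * b := by group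
        _ = _ := by rw [← e]; group
    · intro e
      calc (a : G) * v * (a : G)⁻¹ = a * (v * ((a : G)⁻¹ * b)) * (b : G)⁻¹ := by group
        _ = _ := by rw [← e]; group
  have h9 := card_mul_relIndex (inf_le_right : 𝐂[v] ⊓ 𝐍[OU y] ≤ _)
  rw [inf_relIndex_right, ← h8, show Nat.card 𝐍[OU y] = 319440 by rw [h.NU', h.cardN]] at h9
  have h10 := Set.ncard_le_ncard h6
  have h11 : Nat.card (𝐂[v] ⊓ 𝐍[OU y] : Subgroup G) = 242 := by
    rw [h7] at h10
    have : 319440 ≤ Nat.card (𝐂[v] ⊓ 𝐍[OU y] : Subgroup G) * 1320 := by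
      rw [← h9]; exact Nat.mul_le_mul_left _ h10
    omega
  refine ⟨h11, ?_⟩
  obtain ⟨n, hn⟩ := (Set.eq_of_subset_of_ncard_le h6 (by rw [h11] at h9; omega)).ge ⟨hw, hwY⟩
  exact ⟨n, n.2, hn⟩

theorem conj_Y {w : G} (hw : w ∈ zpowers y) (h1 : w ≠ 1) : IsConj y w := by
  have e : ∀ k, y ^ k = y ^ (k % 11) := fun k => by rw [← h.y11, pow_mod_orderOf]
  have c3 : ∀ k, IsConj (y ^ k) (y ^ (3 * k % 11)) := fun k =>
    isConj_iff.2 ⟨f, by rw [← e, ← conj_pow, h.fy, pow_mul]⟩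
  have c10 : ∀ k, IsConj (y ^ k) (y ^ (10 * k % 11)) := fun k =>
    isConj_iff.2 ⟨s, by
      rw [← e, ← conj_pow, h.sy, pow_mul]; congr 1
      exact inv_eq_of_mul_eq_one_right (by rw [← pow_succ']; exact h.pow11 h.y_O)⟩
  obtain ⟨k, rfl⟩ := (mem_powers_iff_mem_zpowers.2 hw)
  have a1 : IsConj y (y ^ 1) := by rw [pow_one]
  have a3 := a1.trans (c3 1)
  have a9 := a3.trans (c3 3)
  have a5 := a9.trans (c3 9)
  have a4 := a5.trans (c3 5)
  have a10 := a1.trans (c10 1)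
  have a8 := a3.trans (c10 3)
  have a2 := a9.trans (c10 9)
  have a6 := a5.trans (c10 5)
  have a7 := a4.trans (c10 4)
  simp only [e k] at h1 ⊢
  have := Nat.mod_lt k (by norm_num : 0 < 11)
  generalize k % 11 = j at *
  interval_cases j <;> first | assumption | simp at h1

theorem not_conj {v : G} (hv : v ∈ OU y) (hY : v ∉ zpowers y) : ¬ IsConj y v := fun hc => by
  obtain ⟨P, hP⟩ := h.O_syl.exists_sylow_top
  obtain ⟨h1, h2, h3, -⟩ := h.s5575 P
  have k : ∀ a : P, a ≠ 1 → IsConj y a := fun a ha => by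
    by_cases c : (a : G) ∈ zpowers y
    · exact h.conj_Y c fun e => ha (Subtype.ext e)
    · obtain ⟨n, -, hn⟩ := (h.trans hv hY (hP ▸ a.2) c).2
      exact hc.trans (isConj_iff.2 ⟨n, hn⟩)
  have := S3055.result (by norm_num) P h1 h2 h3 fun a b ha hb =>
    isConj_iff.1 ((k a ha).symm.trans (k b hb))
  omega

theorem exists_nc : ∃ v ∈ OU y, v ∉ zpowers y := by
  by_contra! c
  have := card_le_of_le (show OU y ≤ zpowers y from c)
  rw [h.cardO, h.cardY] at this; omega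

theorem cls11 {v w : G} (hv : v ∈ OU y) (hY : v ∉ zpowers y) (hw : orderOf w = 11) :
    IsConj w y ∨ IsConj w v := by
  obtain ⟨g, -, hg⟩ := h.O_syl.exists_conj_mem (k := 1) (by simpa using hw) (mem_top w)
  have c1 : IsConj w (g * w * g⁻¹) := isConj_iff.2 ⟨g, rfl⟩
  by_cases c : g * w * g⁻¹ ∈ zpowers y
  · exact Or.inl (c1.trans (h.conj_Y c (ne1 ((ord_conj _ _).trans hw))).symm)
  · obtain ⟨n, -, hn⟩ := (h.trans hg c hv hY).2
    exact Or.inr (c1.trans (isConj_iff.2 ⟨n, hn⟩))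

theorem s5576 : ∃ x y : G, orderOf x = 11 ∧ orderOf y = 11 ∧ ¬ IsConj x y ∧
    ∀ w : G, orderOf w = 11 → IsConj w x ∨ IsConj w y := by
  obtain ⟨v, hv, hY⟩ := h.exists_nc
  exact ⟨y, v, h.y11, h.ord11 hv (by rintro rfl; exact hY (one_mem _)), h.not_conj hv hY,
    fun w hw => h.cls11 hv hY hw⟩

end J4I
end Cfsg.Agent.J4A
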